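import Cfsg.Agent.H572.RV.Weight

/-!
# A `t`-element `y` with `rk (y - 1) < 2 (t - 1)` preserving a form centralises the abelian `t'`-groups of odd order which it
normalises (helper572)
-/

set_option autoImplicit false
set_option linter.unusedSectionVars false

namespace Cfsg.Agent.H572.RV

open Module Cfsg.Agent.H167.OP Cfsg.Agent.H170.HL

section closed

variable {L : Type*} [Field L] {V : Type*} [AddCommGroup V] [Module L V] {G : Type*} [Group G]
  {t : ℕ} {y : G} {D : Subgroup G}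

/-- weight vectors for distinct weights are independent -/
theorem indep_weights [Finite G] [FiniteDimensional L V] (ρ : Representation L G V)
    {D : Subgroup G} (hD : (Nat.card D : L) ≠ 0) (hab : ∀ a ∈ D, ∀ b ∈ D, a * b = b * a)
    {ι : Type*} (χ : ι → D → L) (hinj : Function.Injective χ)
    (v : ι → V) (hv : ∀ i, v i ∈ Wt ρ D (χ i)) (hv0 : ∀ i, v i ≠ 0) : LinearIndependent L v := by
  classical
  have h1 : iSupIndep fun i : ι => Wt ρ D (χ i) := (indep_Wt ρ hD hab).comp hinj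
  exact h1.linearIndependent _ hv hv0

/-- two independent orbits -/
theorem exists_pair_closed [Finite G] [FiniteDimensional L V] [IsAlgClosed L]
    (ρ : Representation L G V) (ht : t.Prime) (hto : Odd t) {k : ℕ} (hy : y ^ t ^ k = 1)
    (hDo : Odd (Nat.card D)) (hD : (Nat.card D : L) ≠ 0)
    (hab : ∀ a ∈ D, ∀ b ∈ D, a * b = b * a) (hn : Nrm y D)
    (hc : ∃ d ∈ D, ρ (y * d) ≠ ρ (d * y)) (f : V →ₗ[L] V →ₗ[L] L)
    (hf : ∀ g u v, f (ρ g u) (ρ g v) = f u v) (hnd : ∀ x, (∀ y, f y x = 0) → x = 0) :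
    ∃ v w : V, LinearIndependent L
      (Sum.elim (fun i : Fin t => ρ (y ^ (i : ℕ)) v) (fun i : Fin t => ρ (y ^ (i : ℕ)) w)) := by
  obtain ⟨χ, hχ, v, hv, hv0⟩ := exists_moved ρ hD hab hn hc
  have hkey : ∀ i j : ℕ, (tw hn)^[i] χ ≠ ((tw hn)^[j] χ)⁻¹ := by
    intro i j hij
    set ψ := (tw hn)^[j] χ with hψ
    have hψw : ρ (y ^ j) v ∈ Wt ρ D ψ := iter_mem ρ hn hv j
    have hψ0 := ap_ne_zero ρ hv0 (y ^ j)
    have ha : (tw hn)^[i + (t ^ k * j - j)] ψ = ψ⁻¹ := by
      rw [hψ, ← Function.iterate_add_apply, ← hψ, ← hij]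
      have h1 : i + (t ^ k * j - j) + j = i + t ^ k * j := by
        have := Nat.le_mul_of_pos_left j (pow_pos ht.pos k)
        omega
      rw [h1, Function.iterate_add_apply]
      congr 1
      exact tw_periodic hn (by rw [pow_mul, hy, one_pow]) χ
    set a := i + (t ^ k * j - j)
    have h2 : (tw hn)^[2 * a] ψ = ψ := by
      rw [two_mul, Function.iterate_add_apply, ha, tw_inv, ha, inv_inv]
    have h3 : Function.minimalPeriod (tw hn) ψ ∣ 2 * a := Function.IsPeriodicPt.minimalPeriod_dvd h2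
    have h4 : Function.minimalPeriod (tw hn) ψ ∣ t ^ k :=
      Function.IsPeriodicPt.minimalPeriod_dvd (tw_periodic hn hy ψ)
    have h5 : Nat.Coprime (Function.minimalPeriod (tw hn) ψ) 2 :=
      Nat.Coprime.coprime_dvd_left h4 (Nat.Coprime.pow_left _ (Nat.coprime_two_right.mpr hto))
    have h6 : (tw hn)^[a] ψ = ψ :=
      Function.isPeriodicPt_iff_minimalPeriod_dvd.mpr (h5.dvd_of_dvd_mul_left h3)
    have h7 : ψ = ψ⁻¹ := h6.symm.trans ha
    have h8 : ψ = 1 := by
      funext d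
      have h9 := congrFun h7 d
      rw [Pi.inv_apply] at h9
      have h10 := pow_card_eq hψw hψ0 d
      have h0 : ψ d ≠ 0 := by
        intro h0
        rw [h0, zero_pow Nat.card_pos.ne'] at h10
        exact zero_ne_one h10
      refine eq_one_of_sq hDo h10 ?_
      nth_rewrite 2 [h9]
      exact mul_inv_cancel₀ h0
    exact iter_ne_one hn ht hy hχ j h8
  obtain ⟨w, hw, hw0⟩ := inv_weight ρ hD hab f hf hnd hv hv0
  have hχi : tw hn χ⁻¹ ≠ χ⁻¹ := by
    intro h
    apply hχ
    have h1 := tw_inv hn χ 1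
    rw [Function.iterate_one] at h1
    rw [h] at h1
    rw [← inv_inj]
    exact h1.symm
  refine ⟨v, w, indep_weights ρ hD hab
    (Sum.elim (fun i : Fin t => (tw hn)^[(i : ℕ)] χ) (fun i : Fin t => (tw hn)^[(i : ℕ)] χ⁻¹)) ?_ _ ?_ ?_⟩
  · rintro (i | i) (j | j) hij
    · exact congrArg Sum.inl (Fin.ext (iter_inj hn ht hy hχ i i.2 j j.2 hij))
    · exfalso
      have h2 : (tw hn)^[(i : ℕ)] χ = (tw hn)^[(j : ℕ)] χ⁻¹ := hij
      rw [tw_inv] at h2
      exact hkey _ _ h2
    · exfalso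
      have h2 : (tw hn)^[(i : ℕ)] χ⁻¹ = (tw hn)^[(j : ℕ)] χ := hij
      rw [tw_inv] at h2
      exact hkey _ _ h2.symm
    · exact congrArg Sum.inr (Fin.ext (iter_inj hn ht hy hχi i i.2 j j.2 hij))
  · rintro (i | i)
    · exact iter_mem ρ hn hv i
    · exact iter_mem ρ hn hw i
  · rintro (i | i)
    · exact ap_ne_zero ρ hv0 _
    · exact ap_ne_zero ρ hw0 _

/-- the rank of `y - 1` -/
theorem rk_closed_form [Finite G] [FiniteDimensional L V] [IsAlgClosed L]
    (ρ : Representation L G V) (ht : t.Prime) (hto : Odd t) {k : ℕ} (hy : y ^ t ^ k = 1)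
    (hDo : Odd (Nat.card D)) (hD : (Nat.card D : L) ≠ 0)
    (hab : ∀ a ∈ D, ∀ b ∈ D, a * b = b * a) (hn : Nrm y D)
    (hc : ∃ d ∈ D, ρ (y * d) ≠ ρ (d * y)) (f : V →ₗ[L] V →ₗ[L] L)
    (hf : ∀ g u v, f (ρ g u) (ρ g v) = f u v) (hnd : ∀ x, (∀ y, f y x = 0) → x = 0) :
    2 * (t - 1) ≤ rk ρ y := by
  obtain ⟨v, w, hli⟩ := exists_pair_closed ρ ht hto hy hDo hD hab hn hc f hf hnd
  have h0 : 0 < t := ht.pos
  have hvw : LinearIndependent L ![v, w] := by
    have h1 := hli.comp (fun i : Fin 2 => if i = 0 then Sum.inl (⟨0, h0⟩ : Fin t) else Sum.inr ⟨0, h0⟩) ?_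
    · convert h1 using 1
      funext i
      fin_cases i
      · simp
      · simp
    · intro i j hij
      fin_cases i <;> fin_cases j <;> simp_all
  set W : Submodule L V := Submodule.span L (Set.range ![v, w]) with hW
  have hfr : finrank L W = 2 := by
    have := finrank_span_eq_card hvw
    rwa [Fintype.card_fin] at this
  have h2 := le_rk ρ y W (t - 1) ?_
  · rw [hfr] at h2
    omega
  · intro x hx hsum
    have h3 : ∀ i, ∃ a b : L, x i = a • v + b • w := by
      intro i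
      have h4 := hx i
      rw [hW, Matrix.range_cons, Matrix.range_cons, Matrix.range_empty, Set.union_empty, Set.singleton_union,
        Submodule.mem_span_pair] at h4
      obtain ⟨a, b, hab'⟩ := h4
      exact ⟨a, b, hab'.symm⟩
    choose a b hab' using h3
    have h1t : t - 1 + 1 = t := Nat.sub_add_cancel h0
    rw [h1t, Finset.sum_range] at hsum
    have h5 : ∑ s : Fin t ⊕ Fin t, (Sum.elim (fun i : Fin t => a i) (fun i : Fin t => b i)) s •
        (Sum.elim (fun i : Fin t => ρ (y ^ (i : ℕ)) v) (fun i : Fin t => ρ (y ^ (i : ℕ)) w)) s = 0 := by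
      rw [Fintype.sum_sum_type, ← hsum, ← Finset.sum_add_distrib]
      refine Finset.sum_congr rfl fun i _ => ?_
      rw [hab' i, map_add, map_smul, map_smul]
      rfl
    have h6 := Fintype.linearIndependent_iff.mp hli _ h5
    intro i hi
    have hi' : i < t := by omega
    have h7 := h6 (Sum.inl ⟨i, hi'⟩)
    have h8 := h6 (Sum.inr ⟨i, hi'⟩)
    simp only [Sum.elim_inl, Sum.elim_inr] at h7 h8
    rw [hab' i, h7, h8, zero_smul, zero_smul, add_zero]

end closed

section gen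

variable {F : Type*} [Field F] {V : Type*} [AddCommGroup V] [Module F V]
  [FiniteDimensional F V] {G : Type*} [Group G] [Finite G] {t : ℕ} {y : G} {D : Subgroup G}

/-- **centralising abelian groups** -/
theorem comm_of_rk (ρ : Representation F G V) (hinj : Function.Injective ρ) (ht : t.Prime) (hto : Odd t)
    (hy : ∃ k : ℕ, y ^ t ^ k = 1) (hrk : rk ρ y < 2 * (t - 1)) (hDo : Odd (Nat.card D))
    (hD : (Nat.card D : F) ≠ 0) (hab : ∀ a ∈ D, ∀ b ∈ D, a * b = b * a) (hn : Nrm y D)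
    (f : V →ₗ[F] V →ₗ[F] F)
    (hf : ∀ g u v, f (ρ g u) (ρ g v) = f u v) (hnd : ∀ x, (∀ y, f y x = 0) → x = 0) :
    ∀ d ∈ D, y * d = d * y := by
  intro d hd
  by_contra hne
  obtain ⟨k, hy⟩ := hy
  obtain ⟨f', hf', hnd'⟩ := exists_form_bc (AlgebraicClosure F) ρ f hf hnd
  have h1 := rk_closed_form _ ht hto hy hDo (card_cast_bc (AlgebraicClosure F) hD) hab hn
    ⟨d, hd, bc_ne _ ρ (fun h0 => hne (hinj h0))⟩ f' hf' hnd'
  have h2 := finrank_range_bc (AlgebraicClosure F) ρ y
  unfold rk at h1 hrk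
  omega

end gen

end Cfsg.Agent.H572.RV
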